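import Cfsg.Agent.H510.OA.Chev
import Cfsg.Agent.H951.Sub
import Cfsg.Agent.H862.T5.OBase

/-!
# Stable totally singular subspaces (helper510, for S2451)

* `exists_chain` : a `p`-group `X` of isometries, `U` a stable subspace, `2 k + 1 ≤ dim U`, `S₀ ≤ U` stable totally singular
  of dimension `≤ k`: there is a stable totally singular `S` of dimension `k` between;
* `sub_mem_of_end` : `p` odd, `x` a `p`-element, `S ≤ U` totally singular, `dim U ≤ 2 dim S + 2`, `U` nondegenerate: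
  `x v - v ∈ S` for `v ∈ U ∩ S^⊥`.
-/

set_option autoImplicit false
set_option linter.unusedSectionVars false

namespace Cfsg.Agent.H510.OA

open QuadraticMap Module Cfsg.Agent.LieClassical.OrthCore Cfsg.Agent.LieClassical.OrthTrans
open Cfsg.Agent.H951 (Frm Nd TI Inv exists_rel_compl' nd_compl_ti)
open Cfsg.Agent.H862.T5.OBase (BB frm_polar BB_apply)

variable {F V : Type*} [Field F] [AddCommGroup V] [Module F V] {Q : QuadraticForm F V}

theorem ti_of_ts {S : Submodule F V} (hS : ∀ s ∈ S, Q s = 0) : TI (BB Q) S := fun u hu v hv => by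
  rw [BB_apply, QuadraticMap.polar, hS _ (S.add_mem hu hv), hS u hu, hS v hv]
  ring

theorem Q_add_of_perp {S : Submodule F V} (hS : ∀ s ∈ S, Q s = 0) {v s : V} (hv : ∀ s ∈ S, polar Q v s = 0)
    (hs : s ∈ S) : Q (v + s) = Q v := by
  rw [Q_add, hS s hs, hv s hs]
  ring

theorem polar_isom {x : V ≃ₗ[F] V} (hx : x ∈ O Q) (u v : V) : polar Q (x u) (x v) = polar Q u v := polar_map hx u v

/-- the orthogonal space is stable -/
theorem perp_stable {X : Subgroup (V ≃ₗ[F] V)} (hXO : X ≤ O Q) {S : Submodule F V} (hS : ∀ x ∈ X, ∀ s ∈ S, x s ∈ S) :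
    ∀ x ∈ X, ∀ v ∈ (frm_polar Q).perp S, x v ∈ (frm_polar Q).perp S := by
  intro x hx v hv s hs
  have h1 : (x⁻¹ : V ≃ₗ[F] V) s ∈ S := hS _ (X.inv_mem hx) s hs
  have h2 : x ((x⁻¹ : V ≃ₗ[F] V) s) = s := x.apply_symm_apply s
  have h3 := hv _ h1
  rw [BB_apply] at h3 ⊢
  rw [← h2, polar_isom (hXO hx)]
  exact h3

theorem finrank_sup_span {S : Submodule F V} [FiniteDimensional F V] {v : V} (hv : v ∉ S) :
    finrank F ↥(S ⊔ F ∙ v) = finrank F S + 1 := by
  have h0 : v ≠ 0 := fun h => hv (h ▸ S.zero_mem)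
  rw [H951.finrank_sup_of_disj, finrank_span_singleton h0]
  rw [eq_bot_iff]
  rintro w ⟨hw1, hw2⟩
  obtain ⟨c, rfl⟩ := Submodule.mem_span_singleton.1 hw2
  rw [Submodule.mem_bot]
  by_contra hc
  have hc0 : c ≠ 0 := fun h => hc (by rw [h, zero_smul])
  apply hv
  have := S.smul_mem c⁻¹ hw1
  rwa [smul_smul, inv_mul_cancel₀ hc0, one_smul] at this

section chain

variable [Finite F] [FiniteDimensional F V] {p : ℕ} [Fact p.Prime] [CharP F p]

/-- **Stable totally singular subspaces.** -/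
theorem exists_chain {X : Subgroup (V ≃ₗ[F] V)} (hX : IsPGroup p X) (hXO : X ≤ O Q) {U : Submodule F V}
    (hU : ∀ x ∈ X, ∀ u ∈ U, x u ∈ U) {S₀ : Submodule F V} (hS₀U : S₀ ≤ U) (hS₀ : ∀ x ∈ X, ∀ s ∈ S₀, x s ∈ S₀)
    (hS₀Q : ∀ s ∈ S₀, Q s = 0) (k : ℕ) (hk : finrank F S₀ ≤ k) (hkU : 2 * k + 1 ≤ finrank F U) :
    ∃ S : Submodule F V, S ≤ U ∧ S₀ ≤ S ∧ finrank F S = k ∧ (∀ x ∈ X, ∀ s ∈ S, x s ∈ S) ∧ ∀ s ∈ S, Q s = 0 := by
  induction k, hk using Nat.le_induction with
  | base => exact ⟨S₀, hS₀U, le_rfl, rfl, hS₀, hS₀Q⟩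
  | succ k _ ih =>
    obtain ⟨S, hSU, hS₀S, hSk, hSX, hSQ⟩ := ih (by omega)
    set hB := frm_polar Q with hBd
    have h1 := hB.finrank_add_perp_ge S
    have h2 := Submodule.finrank_sup_add_finrank_inf_eq (hB.perp S) U
    have h3 := Submodule.finrank_le (hB.perp S ⊔ U)
    have hTI := ti_of_ts hSQ
    obtain ⟨v, hv, hvS, hvQ, hvX⟩ := exists_rel hX hXO (S := S) (U := hB.perp S ⊓ U) (le_inf hTI hSU) hSX
      (fun x hx u hu => ⟨perp_stable hXO hSX x hx u hu.1, hU x hx u hu.2⟩)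
      (fun u hu s hs => Q_add_of_perp hSQ (fun t ht => hu.1 t ht) hs) (by omega)
    refine ⟨S ⊔ F ∙ v, sup_le hSU (by rw [Submodule.span_singleton_le_iff_mem]; exact hv.2), hS₀S.trans le_sup_left,
      by rw [finrank_sup_span hvS, hSk], ?_, ?_⟩
    · intro x hx w hw
      obtain ⟨s, hs, t, ht, rfl⟩ := Submodule.mem_sup.1 hw
      obtain ⟨c, rfl⟩ := Submodule.mem_span_singleton.1 ht
      have h4 : x (s + c • v) = (x s + c • (x v - v)) + c • v := by
        rw [map_add, map_smul, smul_sub]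
        abel
      rw [h4]
      exact Submodule.add_mem_sup (S.add_mem (hSX x hx s hs) (S.smul_mem _ (hvX x hx)))
        (Submodule.smul_mem _ _ (Submodule.mem_span_singleton_self v))
    · intro w hw
      obtain ⟨s, hs, t, ht, rfl⟩ := Submodule.mem_sup.1 hw
      obtain ⟨c, rfl⟩ := Submodule.mem_span_singleton.1 ht
      have h5 : polar Q v s = 0 := hv.1 s hs
      rw [Q_add, QuadraticMap.map_smul, hvQ, hSQ s hs, polar_smul_right, polar_comm, h5]
      simp

end chain

section finish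

variable [FiniteDimensional F V]

theorem finrank_map_mkQ' {S U : Submodule F V} (hSU : S ≤ U) :
    finrank F (U.map S.mkQ) + finrank F S = finrank F U := by
  have h1 := LinearMap.finrank_range_add_finrank_ker (S.mkQ.domRestrict U)
  have h2 : LinearMap.range (S.mkQ.domRestrict U) = U.map S.mkQ := by
    rw [LinearMap.range_domRestrict]
  have h3 : LinearMap.ker (S.mkQ.domRestrict U) = S.comap U.subtype := by
    rw [LinearMap.ker_domRestrict, Submodule.ker_mkQ]
  rw [h2, h3, (Submodule.comapSubtypeEquivOfLe hSU).finrank_eq] at h1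
  exact h1

/-- A nilpotent operator on a section of dimension at most two has square zero. -/
theorem sq_mem {N : Module.End F V} (hN : ∃ n, N ^ n = 0) {S W : Submodule F V} (hSW : S ≤ W)
    (hS : ∀ s ∈ S, N s ∈ S) (hW : ∀ w ∈ W, N w ∈ W) (hd : finrank F W ≤ finrank F S + 2) :
    ∀ w ∈ W, N (N w) ∈ S := by
  obtain ⟨n, hn⟩ := hN
  let f₀ : Module.End F (V ⧸ S) := S.mapQ S N (fun s hs => hS s hs)
  have hf₀ : ∀ v, f₀ (S.mkQ v) = S.mkQ (N v) := fun v => rfl
  have hM : ∀ z ∈ W.map S.mkQ, f₀ z ∈ W.map S.mkQ := by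
    rintro _ ⟨v, hv, rfl⟩
    exact ⟨N v, hW v hv, rfl⟩
  let f : Module.End F (W.map S.mkQ) := f₀.restrict hM
  have hf : ∀ z, ((f z : W.map S.mkQ) : V ⧸ S) = f₀ z := fun _ => rfl
  have hpow : ∀ (k : ℕ) (v : V) (hv : v ∈ W), (((f ^ k) ⟨S.mkQ v, v, hv, rfl⟩ : W.map S.mkQ) : V ⧸ S) =
      S.mkQ ((N ^ k) v) := by
    intro k
    induction k with
    | zero => intro v hv; rfl
    | succ k ih =>
      intro v hv
      rw [pow_succ, pow_succ, Module.End.mul_apply, Module.End.mul_apply, ← ih (N v) (hW v hv)]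
      rfl
  have h1 : f ^ n = 0 := by
    apply LinearMap.ext
    rintro ⟨_, v, hv, rfl⟩
    apply Subtype.ext
    rw [hpow n v hv, hn]
    rfl
  have h2 : finrank F (W.map S.mkQ) ≤ 2 := by
    have := finrank_map_mkQ' hSW
    omega
  have h3 : f ^ 2 = 0 := by
    have h4 := Module.End.ker_pow_le_ker_pow_finrank f n
    rw [h1, LinearMap.ker_zero, top_le_iff, LinearMap.ker_eq_top] at h4
    obtain ⟨k, hk⟩ := Nat.exists_eq_add_of_le h2
    rw [hk, add_comm, pow_add, h4, mul_zero]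
  intro w hw
  have h4 := congrArg (fun g : Module.End F (W.map S.mkQ) => ((g ⟨S.mkQ w, w, hw, rfl⟩ : W.map S.mkQ) : V ⧸ S)) h3
  rw [← Submodule.Quotient.mk_eq_zero S]
  exact (hpow 2 w hw).symm.trans h4

variable {p : ℕ} [Fact p.Prime] [CharP F p]

theorem nilp_of_pow {x : V ≃ₗ[F] V} (hx : ∃ j : ℕ, x ^ p ^ j = 1) : ∃ n : ℕ, ((x : Module.End F V) - 1) ^ n = 0 := by
  obtain ⟨j, hj⟩ := hx
  refine ⟨p ^ j, ?_⟩
  rcases subsingleton_or_nontrivial V with hV | hV
  · exact LinearMap.ext fun v => Subsingleton.elim _ _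
  · have : CharP (Module.End F V) p := charP_of_injective_algebraMap (algebraMap F (Module.End F V)).injective p
    rw [sub_pow_char_pow_of_commute _ _ (Commute.one_right _), one_pow, sub_eq_zero]
    apply LinearMap.ext
    intro v
    have h1 : ∀ n : ℕ, (((x : Module.End F V)) ^ n) v = (x ^ n) v := by
      intro n
      induction n generalizing v with
      | zero => rfl
      | succ n ih =>
        rw [pow_succ, pow_succ, Module.End.mul_apply, LinearEquiv.mul_apply, ← ih]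
        rfl
    rw [h1, hj]
    rfl

/-- **The end of the chain**: `x` is trivial on `(U ∩ S^⊥) / S`. -/
theorem sub_mem_of_end (h2 : (2 : F) ≠ 0) {x : V ≃ₗ[F] V} (hx : x ∈ O Q) (hxp : ∃ j : ℕ, x ^ p ^ j = 1)
    {S U : Submodule F V} (hUn : Nd (BB Q) U) (hSU : S ≤ U) (hSQ : ∀ s ∈ S, Q s = 0) (hxS : ∀ s ∈ S, x s ∈ S)
    (hxU : ∀ u ∈ U, x u ∈ U) (hd : finrank F U ≤ 2 * finrank F S + 2) :
    ∀ v ∈ U, (∀ s ∈ S, polar Q v s = 0) → x v - v ∈ S := by
  set hB := frm_polar Q with hBd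
  have hTI := ti_of_ts hSQ
  obtain ⟨C, hCle, hC1, hC2⟩ := exists_rel_compl' (W := S) (U := hB.perp S ⊓ U) (le_inf hTI hSU)
  obtain ⟨hCn, hC3, hC4, hC5⟩ := nd_compl_ti hB hUn hSU hTI hC1 hC2
  have hWd : finrank F ↥(hB.perp S ⊓ U) = finrank F S + finrank F C := by
    rw [← hC2, H951.finrank_sup_of_disj hC1]
  -- the orthogonal is stable
  have hmap : S.map (x : V →ₗ[F] V) = S := by
    apply Submodule.eq_of_le_of_finrank_eq
    · rintro _ ⟨s, hs, rfl⟩
      exact hxS s hs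
    · exact LinearEquiv.finrank_map_eq x S
  have hxP : ∀ v ∈ hB.perp S, x v ∈ hB.perp S := by
    intro v hv s hs
    rw [← hmap] at hs
    obtain ⟨t, ht, rfl⟩ := hs
    have h3 : polar Q (x v) (x t) = polar Q v t := polar_isom hx v t
    rw [BB_apply]
    exact h3.trans (hv t ht)
  let N : Module.End F V := (x : Module.End F V) - 1
  have hNa : ∀ v, N v = x v - v := fun v => rfl
  have hNW : ∀ w ∈ hB.perp S ⊓ U, N w ∈ hB.perp S ⊓ U := fun w hw =>
    Submodule.sub_mem _ ⟨hxP w hw.1, hxU w hw.2⟩ hw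
  have hNS : ∀ s ∈ S, N s ∈ S := fun s hs => S.sub_mem (hxS s hs) hs
  have hsq := sq_mem (N := N) (nilp_of_pow (p := p) hxp) (S := S) (W := hB.perp S ⊓ U) (le_inf hTI hSU) hNS hNW (by omega)
  -- `N` is isotropic
  have key : ∀ v ∈ hB.perp S ⊓ U, Q (N v) = 0 ∧ polar Q v (N v) = 0 := by
    intro v hv
    have e1 : x v = v + N v := by rw [hNa]; abel
    have e2 : x (x v) = (v + (2 : F) • N v) + N (N v) := by
      rw [hNa (N v), two_smul, hNa, map_sub]
      abel
    have hv2 : v + (2 : F) • N v ∈ hB.perp S := Submodule.add_mem _ hv.1 (Submodule.smul_mem _ _ (hNW v hv).1)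
    have q1 : Q (N v) + polar Q v (N v) = 0 := by
      have h3 : Q (x v) = Q v := hx v
      rw [e1, Q_add] at h3
      linear_combination h3
    have q2 : 4 * Q (N v) + 2 * polar Q v (N v) = 0 := by
      have h3 : Q (x (x v)) = Q v := (hx (x v)).trans (hx v)
      rw [e2, Q_add_of_perp hSQ (fun s hs => hv2 s hs) (hsq v hv), Q_add, QuadraticMap.map_smul, polar_smul_right] at h3
      simp only [smul_eq_mul] at h3
      linear_combination h3
    have q3 : (2 : F) * Q (N v) = 0 := by linear_combination q2 - 2 * q1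
    have q4 : Q (N v) = 0 := (mul_eq_zero.1 q3).resolve_left h2
    exact ⟨q4, by rw [q4, zero_add] at q1; exact q1⟩
  intro v hv hvS
  have hvW : v ∈ hB.perp S ⊓ U := ⟨hvS, hv⟩
  by_contra hu
  rw [← hNa] at hu
  set u := N v with hud
  have huW : u ∈ hB.perp S ⊓ U := hNW v hvW
  -- `v ∉ S + ⟨u⟩`
  have hvS' : v ∉ S ⊔ F ∙ u := by
    intro h
    obtain ⟨s, hs, t, ht, hst⟩ := Submodule.mem_sup.1 h
    obtain ⟨c, rfl⟩ := Submodule.mem_span_singleton.1 ht
    apply hu
    rw [hud, ← hst, map_add, map_smul]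
    exact S.add_mem (hNS s hs) (S.smul_mem _ (hsq v hvW))
  have hWle : S ⊔ F ∙ u ⊔ F ∙ v = hB.perp S ⊓ U := by
    apply Submodule.eq_of_le_of_finrank_le
    · refine sup_le (sup_le (le_inf hTI hSU) ?_) ?_
      · rw [Submodule.span_singleton_le_iff_mem]; exact huW
      · rw [Submodule.span_singleton_le_iff_mem]; exact hvW
    · rw [finrank_sup_span hvS', finrank_sup_span hu]
      omega
  -- `u` is orthogonal to everything
  have hup : ∀ w ∈ hB.perp S ⊓ U, polar Q u w = 0 := by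
    intro w hw
    rw [← hWle] at hw
    obtain ⟨w', hw', t, ht, rfl⟩ := Submodule.mem_sup.1 hw
    obtain ⟨c, rfl⟩ := Submodule.mem_span_singleton.1 ht
    obtain ⟨s, hs, t, ht, rfl⟩ := Submodule.mem_sup.1 hw'
    obtain ⟨d, rfl⟩ := Submodule.mem_span_singleton.1 ht
    have h3 : polar Q u s = 0 := huW.1 s hs
    rw [polar_add_right, polar_add_right, polar_smul_right, polar_smul_right, h3, polar_self_of_sing (key v hvW).1,
      polar_comm, (key v hvW).2]
    simp
  -- so it lies in `S`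
  have hu2 : u ∈ S ⊔ C := by rw [hC2]; exact huW
  obtain ⟨s, hs, c, hc, hsc⟩ := Submodule.mem_sup.1 hu2
  have hc0 : c = 0 := by
    by_contra hc0
    obtain ⟨d, hd', hcd⟩ := hCn c hc hc0
    apply hcd
    have h3 := hup d (by rw [← hC2]; exact Submodule.mem_sup_right hd')
    have h4 : polar Q s d = 0 := by
      rw [polar_comm]
      exact hC3 hd' s hs
    rw [← hsc, polar_add_left, h4, zero_add] at h3
    exact h3
  apply hu
  rw [← hsc, hc0, add_zero]
  exact hs

end finish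

end Cfsg.Agent.H510.OA
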